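import Cfsg.Agent.Lib.Helper84.CM.Defs

set_option autoImplicit false

namespace Cfsg.Agent.Lib.Helper84.CM

open Cfsg
open scoped commutatorElement

variable {G : Type*} [Group G] [Finite G]

/-- ZERO. -/
theorem zero_mul' (h : HM G) (χ : IrrCharacter G) (hχ : (χ : G → ℂ) 1 ≠ 1) (x y : G)
    (hx : x ≠ 1) (hy : y ≠ 1) (p q a b : ℕ) (hp : p.Prime) (hq : q.Prime) (hpq : p ≠ q)
    (hxo : orderOf x = p ^ a) (hyo : orderOf y = q ^ b) :
    (χ : G → ℂ) x * (χ : G → ℂ) y = 0 := by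
  classical
  have := Fintype.ofFinite G
  have hch := Cfsg.Agent.Lib.Helper82.isIrr_isChar χ.2
  have h0 := Cfsg.Agent.Lib.Helper82.isIrr_one_ne_zero χ.2
  have h1 := Cfsg.Agent.Lib.Helper82.isIrr_sum_conj_mul χ.2 x y
  have h2 : ∀ c : G, (χ : G → ℂ) (c * x * c⁻¹ * y) = (χ : G → ℂ) x * (χ : G → ℂ) y := by
    intro c
    have hne : c * x * c⁻¹ ≠ 1 := by
      intro h3
      apply hx
      have : x = c⁻¹ * (c * x * c⁻¹) * c := by group
      rw [this, h3]; group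
    have ho : orderOf (c * x * c⁻¹) = p ^ a := by
      rw [← hxo]
      exact orderOf_injective (MulAut.conj c).toMonoidHom (MulAut.conj c).injective x
    rw [h (c * x * c⁻¹) y χ hne hy ⟨p, q, a, b, hp, hq, hpq, ho, hyo⟩,
      Cfsg.Agent.Lib.Helper82.isChar_conj_eq hch]
  simp only [h2, Finset.sum_const, Finset.card_univ, nsmul_eq_mul,
    ← Nat.card_eq_fintype_card] at h1
  have hG : (Nat.card G : ℂ) ≠ 0 := by exact_mod_cast Nat.card_pos.ne'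
  have h3 : (χ : G → ℂ) x * (χ : G → ℂ) y * ((χ : G → ℂ) 1 - 1) = 0 := by
    field_simp at h1
    linear_combination h1
  rcases mul_eq_zero.1 h3 with h4 | h4
  · exact h4
  · exact absurd (by linear_combination h4) hχ

/-- BAD. -/
theorem bad_unique (h : HM G) (χ₁ χ₂ : IrrCharacter G) (h₁ : (χ₁ : G → ℂ) 1 ≠ 1)
    (h₂ : (χ₂ : G → ℂ) 1 ≠ 1) (y₁ y₂ : G) (q₁ q₂ b₁ b₂ : ℕ) (hq₁ : q₁.Prime) (hq₂ : q₂.Prime)
    (hne : q₁ ≠ q₂) (ho₁ : orderOf y₁ = q₁ ^ b₁) (ho₂ : orderOf y₂ = q₂ ^ b₂) (hy₁ : y₁ ≠ 1)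
    (hy₂ : y₂ ≠ 1) (hv₁ : (χ₁ : G → ℂ) y₁ ≠ 0) (hv₂ : (χ₂ : G → ℂ) y₂ ≠ 0) : False := by
  classical
  have := Fintype.ofFinite (IrrCharacter G)
  have hc₁ := Cfsg.Agent.Lib.Helper82.isIrr_isChar χ₁.2
  have hc₂ := Cfsg.Agent.Lib.Helper82.isIrr_isChar χ₂.2
  have hψ : IsCharacter G ((χ₁ : G → ℂ) * (χ₂ : G → ℂ)) :=
    Cfsg.Agent.Lib.Helper20.isCharacter_mul hc₁ hc₂
  -- the product vanishes on nonidentity elements of prime power order
  have hvan : ∀ (r : ℕ) (hr : r.Prime) (g : G) (c : ℕ), g ≠ 1 → orderOf g = r ^ c →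
      ((χ₁ : G → ℂ) * (χ₂ : G → ℂ)) g = 0 := by
    intro r hr g c hg hgo
    rw [Pi.mul_apply]
    by_cases hr1 : r = q₁
    · subst hr1
      have h3 := zero_mul' h χ₂ h₂ g y₂ hg hy₂ r q₂ c b₂ hr hq₂ hne hgo ho₂
      rcases mul_eq_zero.1 h3 with h4 | h4
      · rw [h4, mul_zero]
      · exact absurd h4 hv₂
    · have h3 := zero_mul' h χ₁ h₁ g y₁ hg hy₁ r q₁ c b₁ hr hq₁ hr1 hgo ho₁
      rcases mul_eq_zero.1 h3 with h4 | h4
      · rw [h4, zero_mul]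
      · exact absurd h4 hv₁
  -- so |G| divides the degree
  have hdeg : ((χ₁ : G → ℂ) * (χ₂ : G → ℂ)) 1 =
      ((charDegree (χ₁ : G → ℂ) * charDegree (χ₂ : G → ℂ) : ℕ) : ℂ) := by
    rw [Pi.mul_apply, Cfsg.Agent.Lib.Helper82.isChar_one_eq hc₁,
      Cfsg.Agent.Lib.Helper82.isChar_one_eq hc₂]
    push_cast; rfl
  have hdvd : Nat.card G ∣ charDegree (χ₁ : G → ℂ) * charDegree (χ₂ : G → ℂ) := by
    rw [Nat.dvd_iff_prime_pow_dvd_dvd]
    intro r k hr hrk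
    have : Fact r.Prime := ⟨hr⟩
    obtain ⟨P⟩ : Nonempty (Sylow r G) := inferInstance
    obtain ⟨m, hm⟩ := Cfsg.Agent.S0189.result r P _ hψ (by
      intro g hg hg1
      obtain ⟨c, hc⟩ := P.2 ⟨g, hg⟩
      have hc' : g ^ r ^ c = 1 := congrArg Subtype.val hc
      obtain ⟨c', _, hc''⟩ := (Nat.dvd_prime_pow hr).1 (orderOf_dvd_of_pow_eq_one hc')
      exact hvan r hr g c' hg1 hc'')
    rw [hdeg] at hm
    have hm' : charDegree (χ₁ : G → ℂ) * charDegree (χ₂ : G → ℂ) = Nat.card P * m := by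
      exact_mod_cast hm
    rw [hm']
    apply Dvd.dvd.mul_right
    rw [Sylow.card_eq_multiplicity]
    exact (Nat.Prime.pow_dvd_iff_le_factorization hr Nat.card_pos.ne').1 hrk |> pow_dvd_pow r
  -- but the degree is smaller than |G|
  have hsum := Cfsg.Agent.Lib.Helper82.sum_sq_charDegree (G := G)
  have hlt : ∀ χ : IrrCharacter G, (χ : G → ℂ) 1 ≠ 1 → charDegree (χ : G → ℂ) ^ 2 < Nat.card G := by
    intro χ hχ
    have hne' : χ ≠ Cfsg.Agent.Lib.Helper82.trivIrr G := by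
      rintro rfl
      exact hχ rfl
    rw [← hsum, ← Finset.add_sum_erase _ _ (Finset.mem_univ χ)]
    have : 0 < ∑ ψ ∈ Finset.univ.erase χ, charDegree (ψ : G → ℂ) ^ 2 := by
      apply Finset.sum_pos' (fun _ _ => Nat.zero_le _)
      refine ⟨Cfsg.Agent.Lib.Helper82.trivIrr G, Finset.mem_erase.2 ⟨hne'.symm, Finset.mem_univ _⟩, ?_⟩
      have := Cfsg.Agent.Lib.Helper82.isIrr_charDegree_pos (Cfsg.Agent.Lib.Helper82.trivIrr G).2
      positivity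
    omega
  have hp₁ := Cfsg.Agent.Lib.Helper82.isIrr_charDegree_pos χ₁.2
  have hp₂ := Cfsg.Agent.Lib.Helper82.isIrr_charDegree_pos χ₂.2
  have hle := Nat.le_of_dvd (Nat.mul_pos hp₁ hp₂) hdvd
  have l1 := hlt χ₁ h₁
  have l2 := hlt χ₂ h₂
  nlinarith

end Cfsg.Agent.Lib.Helper84.CM
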