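import Cfsg.Agent.Lib.Helper84.CM.A1

set_option autoImplicit false

namespace Cfsg.Agent.Lib.Helper84.CM

open Cfsg
open scoped commutatorElement

variable {G : Type*} [Group G] [Finite G]

/-- VPX. -/
theorem exists_vp (h : HM G) : ∃ p : ℕ, p.Prime ∧ VP G p := by
  by_cases hbad : ∃ (χ : IrrCharacter G) (y : G) (q b : ℕ), (χ : G → ℂ) 1 ≠ 1 ∧ y ≠ 1 ∧ q.Prime ∧
      orderOf y = q ^ b ∧ (χ : G → ℂ) y ≠ 0
  · obtain ⟨χ₁, y₁, q₁, b₁, h₁, hy₁, hq₁, ho₁, hv₁⟩ := hbad
    refine ⟨q₁, hq₁, ?_⟩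
    intro χ hχ y q b hy hq hqp ho
    by_contra hv
    exact bad_unique h χ₁ χ h₁ hχ y₁ y q₁ q b₁ b hq₁ hq (Ne.symm hqp) ho₁ ho hy₁ hy hv₁ hv
  · push Not at hbad
    refine ⟨2, Nat.prime_two, ?_⟩
    intro χ hχ y q b hy hq _ ho
    exact hbad χ y q b hχ hy hq ho

/-- DERP. -/
theorem comm_isPGroup (p : ℕ) [Fact p.Prime] (hv : VP G p) : IsPGroup p (commutator G) := by
  have hp : p.Prime := Fact.out
  rw [IsPGroup.iff_card]
  -- every prime divisor of the order is p
  have hprime : ∀ q : ℕ, q.Prime → q ∣ Nat.card (commutator G) → q = p := by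
    intro q hq hqd
    by_contra hqp
    have : Fact q.Prime := ⟨hq⟩
    obtain ⟨y, hy⟩ := exists_prime_orderOf_dvd_card' q hqd
    have hy1 : (y : G) ≠ 1 := by
      intro h1
      have : y = 1 := Subtype.ext h1
      rw [this, orderOf_one] at hy
      exact hq.one_lt.ne hy
    have hyo : orderOf (y : G) = q ^ 1 := by rw [Subgroup.orderOf_coe, hy, pow_one]
    have hvan : ∀ χ : IrrCharacter G, (χ : G → ℂ) 1 ≠ 1 → (χ : G → ℂ) (y : G) = 0 := fun χ hχ =>
      hv χ hχ y q 1 hy1 hq hqp hyo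
    have h2 := (Cfsg.Agent.Lib.Helper82.isConj_iff_of_nonlinear_vanish hvan 1).2
      (by rw [mul_one]; exact inv_mem y.2)
    exact hy1 (isConj_one_left.1 h2)
  exact ⟨_, Nat.eq_prime_pow_of_unique_prime_dvd Nat.card_pos.ne'
    (fun {q} hq hqd => hprime q hq hqd)⟩

/-- SYLN. -/
theorem sylow_normal (p : ℕ) [Fact p.Prime] (hG' : IsPGroup p (commutator G)) (P : Sylow p G) :
    commutator G ≤ P ∧ (P : Subgroup G).Normal := by
  have hle : commutator G ≤ P := by
    obtain ⟨Q, hQ⟩ := hG'.exists_le_sylow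
    obtain ⟨g, rfl⟩ := MulAction.exists_smul_eq G Q P
    intro x hx
    rw [Sylow.coe_subgroup_smul, Subgroup.mem_pointwise_smul_iff_inv_smul_mem]
    apply hQ
    show (MulAut.conj g)⁻¹ • x ∈ commutator G
    have hn : (commutator G).Normal := inferInstance
    have := hn.conj_mem x hx g⁻¹
    simpa [MulAut.smul_def, MulAut.conj_apply] using this
  refine ⟨hle, ⟨?_⟩⟩
  intro n hn g
  have h1 : g * n * g⁻¹ = ⁅g, n⁆ * n := by rw [commutatorElement_def]; group
  rw [h1]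
  exact mul_mem (hle (Subgroup.commutator_mem_commutator (Subgroup.mem_top _) (Subgroup.mem_top _))) hn

/-- COMPL. -/
theorem exists_compl (p : ℕ) [Fact p.Prime] (P : Sylow p G) (hn : (P : Subgroup G).Normal)
    (hc : commutator G ≤ P) :
    ∃ A : Subgroup G, A ⊓ (P : Subgroup G) = ⊥ ∧ A ⊔ (P : Subgroup G) = ⊤ ∧
      (Nat.card A).Coprime p ∧ (∀ a ∈ A, ∀ b ∈ A, a * b = b * a) ∧
      Nat.card A = (P : Subgroup G).index := by
  have hp : p.Prime := Fact.out
  have hcop : (Nat.card (P : Subgroup G)).Coprime (P : Subgroup G).index := P.card_coprime_index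
  obtain ⟨A, hA⟩ := Subgroup.exists_right_complement'_of_coprime hcop
  have hdisj : A ⊓ (P : Subgroup G) = ⊥ := by
    rw [inf_comm]; exact hA.disjoint.eq_bot
  have hcardA : Nat.card A = (P : Subgroup G).index := by
    have h1 := hA.card_mul_card
    have h2 := Subgroup.card_mul_index (P : Subgroup G)
    rw [← h2] at h1
    exact Nat.eq_of_mul_eq_mul_left Nat.card_pos h1
  refine ⟨A, hdisj, ?_, ?_, ?_, hcardA⟩
  · rw [sup_comm]; exact hA.sup_eq_top
  · rw [hcardA]
    exact (Nat.Coprime.symm ((Nat.Prime.coprime_iff_not_dvd hp).2 P.not_dvd_index))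
  · intro a ha b hb
    have h1 : ⁅a, b⁆ ∈ A ⊓ (P : Subgroup G) :=
      ⟨by rw [commutatorElement_def]; exact A.mul_mem (A.mul_mem (A.mul_mem ha hb) (A.inv_mem ha)) (A.inv_mem hb),
        hc (Subgroup.commutator_mem_commutator (Subgroup.mem_top _) (Subgroup.mem_top _))⟩
    rw [hdisj, Subgroup.mem_bot, commutatorElement_eq_one_iff_mul_comm] at h1
    exact h1

end Cfsg.Agent.Lib.Helper84.CM
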