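import Cfsg.Agent.Lib.Helper84.CM.A2

set_option autoImplicit false

namespace Cfsg.Agent.Lib.Helper84.CM

open Cfsg
open scoped commutatorElement

variable {G : Type*} [Group G] [Finite G]

omit [Finite G] in
theorem card_mul_relIndex' {H K : Subgroup G} (h : H ≤ K) :
    Nat.card H * H.relIndex K = Nat.card K := by
  have := Subgroup.relIndex_mul_relIndex ⊥ H K bot_le h
  rwa [Subgroup.relIndex_bot_left, Subgroup.relIndex_bot_left] at this

theorem coprime_decomp (p : ℕ) [Fact p.Prime] (P : Sylow p G) (hn : (P : Subgroup G).Normal)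
    (A : Subgroup G) (hcop : (Nat.card A).Coprime p) :
    ⁅(P : Subgroup G), A⁆ ⊔ ((P : Subgroup G) ⊓ Subgroup.centralizer (A : Set G)) =
      (P : Subgroup G) := by
  apply Cfsg.Agent.Lib.Helper1.coprime_commutator_sup_centralizer A (P : Subgroup G)
  · rw [Subgroup.normalizer_eq_top_iff.2 hn]; exact le_top
  · obtain ⟨k, hk⟩ := P.2.exists_card_eq
    rw [hk]; exact Nat.Coprime.pow_right k hcop
  · right
    have : Group.IsNilpotent (P : Subgroup G) := P.2.isNilpotent
    infer_instance

/-- KEY. -/
theorem key (p : ℕ) [Fact p.Prime] (P : Sylow p G) (hn : (P : Subgroup G).Normal)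
    (hc : commutator G ≤ P) (A : Subgroup G) (hsup : A ⊔ (P : Subgroup G) = ⊤)
    (hcop : (Nat.card A).Coprime p) (hAc : ∀ a ∈ A, ∀ b ∈ A, a * b = b * a) (y : G) (hy : y ∈ A)
    (hcy : Nat.card (Subgroup.centralizer ({y} : Set G)) = (commutator G).index) :
    ((P : Subgroup G) ⊓ Subgroup.centralizer ({y} : Set G) =
      (P : Subgroup G) ⊓ Subgroup.centralizer (A : Set G)) ∧
    ((P : Subgroup G) ⊓ Subgroup.centralizer (A : Set G)) ⊓ commutator G = ⊥ := by
  set K := Subgroup.centralizer ({y} : Set G) with hK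
  set C := (P : Subgroup G) ⊓ Subgroup.centralizer (A : Set G) with hC
  have hAK : A ≤ K := by
    intro a ha
    rw [hK, Subgroup.mem_centralizer_singleton_iff]
    exact hAc a ha y hy
  have hKP : K ⊔ (P : Subgroup G) = ⊤ := by
    apply top_le_iff.1
    rw [← hsup]
    exact sup_le_sup_right hAK _
  -- (i)
  have h1 : Nat.card ((P : Subgroup G) ⊓ K : Subgroup G) * (P : Subgroup G).index = Nat.card K := by
    rw [← card_mul_relIndex' (inf_le_right : (P : Subgroup G) ⊓ K ≤ K), Subgroup.inf_relIndex_right,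
      ← Subgroup.relIndex_sup_right K (P : Subgroup G), hKP, Subgroup.relIndex_top_right]
  -- (ii)
  have h2 := Subgroup.relIndex_mul_index hc
  have hidx : 0 < (P : Subgroup G).index := Nat.pos_of_ne_zero Subgroup.index_ne_zero_of_finite
  have h3 : Nat.card ((P : Subgroup G) ⊓ K : Subgroup G) = (commutator G).relIndex (P : Subgroup G) := by
    apply Nat.eq_of_mul_eq_mul_right hidx
    rw [h1, h2, hcy]
  -- (iii)
  have hcm : ⁅(P : Subgroup G), A⁆ ≤ commutator G := by
    rw [commutator_def]; exact Subgroup.commutator_mono le_top le_top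
  have hdec : ⁅(P : Subgroup G), A⁆ ⊔ C = (P : Subgroup G) := coprime_decomp p P hn A hcop
  have h4a : ⁅(P : Subgroup G), A⁆ ⊔ C ≤ C ⊔ commutator G :=
    sup_le (le_trans hcm (le_sup_right : commutator G ≤ C ⊔ commutator G))
      (le_sup_left : C ≤ C ⊔ commutator G)
  have h4 : C ⊔ commutator G = (P : Subgroup G) := by
    apply le_antisymm (sup_le inf_le_left hc)
    rw [hdec] at h4a
    exact h4a
  have h5 : (commutator G).relIndex (P : Subgroup G) = (commutator G ⊓ C).relIndex C := by
    rw [← h4, Subgroup.relIndex_sup_right, Subgroup.inf_relIndex_right]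
  have h6 := card_mul_relIndex' (inf_le_right : commutator G ⊓ C ≤ C)
  rw [← h5, ← h3] at h6
  have hCle : C ≤ (P : Subgroup G) ⊓ K := by
    apply le_inf inf_le_left
    intro c hc'
    rw [hK, Subgroup.mem_centralizer_singleton_iff]
    exact ((Subgroup.mem_centralizer_iff.1 hc'.2) y hy).symm
  have h7 := Subgroup.card_le_of_le hCle
  have hpos : 0 < Nat.card ((P : Subgroup G) ⊓ K : Subgroup G) := Nat.card_pos
  have hpos' : 0 < Nat.card (commutator G ⊓ C : Subgroup G) := Nat.card_pos
  have h8 : Nat.card (commutator G ⊓ C : Subgroup G) = 1 := by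
    by_contra hne
    have : 2 ≤ Nat.card (commutator G ⊓ C : Subgroup G) := by omega
    nlinarith
  constructor
  · symm
    apply Subgroup.eq_of_le_of_card_ge hCle
    rw [← h6, h8, one_mul]
  · rw [inf_comm]
    exact Subgroup.card_eq_one.1 h8

end Cfsg.Agent.Lib.Helper84.CM
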