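import Cfsg.Agent.Lib.Helper84.CM.A3

set_option autoImplicit false

namespace Cfsg.Agent.Lib.Helper84.CM

open Cfsg
open scoped commutatorElement

variable {G : Type*} [Group G] [Finite G]

theorem exists_prime_pow (a : G) (ha : a ≠ 1) :
    ∃ k q : ℕ, q.Prime ∧ orderOf (a ^ k) = q ∧ a ^ k ≠ 1 ∧ q ∣ orderOf a := by
  have h1 : orderOf a ≠ 1 := by rwa [Ne, orderOf_eq_one_iff]
  have hq := Nat.minFac_prime h1
  have hd := Nat.minFac_dvd (orderOf a)
  have ho : orderOf (a ^ (orderOf a / (orderOf a).minFac)) = (orderOf a).minFac :=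
    orderOf_pow_orderOf_div (orderOf_pos a).ne' hd
  refine ⟨orderOf a / (orderOf a).minFac, (orderOf a).minFac, hq, ho, ?_, hd⟩
  intro h2
  rw [h2, orderOf_one] at ho
  exact hq.one_lt.ne ho

/-- abelian, fixed-point-free on a nontrivial normal `p`-subgroup: cyclic -/
theorem cyclic_of_fpf (p : ℕ) [Fact p.Prime] (A D : Subgroup G) (hD : D.Normal) (hDp : IsPGroup p D)
    (hD1 : D ≠ ⊥) (hAc : ∀ a ∈ A, ∀ b ∈ A, a * b = b * a)
    (hf : ∀ a ∈ A, a ≠ 1 → ∀ d ∈ D, a * d = d * a → d = 1) : IsCyclic A := by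
  set V : Subgroup G := (Subgroup.center D).map D.subtype with hV
  have hVD : V ≤ D := by
    rintro _ ⟨z, _, rfl⟩
    exact z.2
  have hVc : IsMulCommutative V := by
    refine ⟨⟨fun a b => ?_⟩⟩
    obtain ⟨z, hz, hza⟩ := a.2
    obtain ⟨w, _, hwb⟩ := b.2
    apply Subtype.ext
    show (a : G) * b = b * a
    rw [← hza, ← hwb]
    exact (congrArg Subtype.val (Subgroup.mem_center_iff.1 hz w)).symm
  have hV1 : V ≠ ⊥ := by
    intro h0
    have : Nontrivial D := (Subgroup.nontrivial_iff_ne_bot D).2 hD1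
    have hnt := hDp.center_nontrivial
    rw [hV, Subgroup.map_eq_bot_iff_of_injective _ D.subtype_injective] at h0
    rw [h0] at hnt
    exact not_nontrivial _ hnt
  have hAV : A ≤ Subgroup.normalizer (V : Set G) := by
    refine le_trans ?_ (Cfsg.Agent.Lib.Helper1.normalizer_le_normalizer_map_of_characteristic D
      (Subgroup.center D))
    rw [Subgroup.normalizer_eq_top_iff.2 hD]; exact le_top
  apply Cfsg.Agent.Lib.Helper1.fpf_isCyclic_subgroup A V hV1 hAV
  · intro a ha ha1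
    rw [Subgroup.eq_bot_iff_forall]
    intro d hd
    refine hf a ha ha1 d (hVD hd.1) ?_
    exact (Subgroup.mem_centralizer_singleton_iff.1 hd.2).symm
  · left
    exact ⟨⟨fun a b => Subtype.ext (hAc a a.2 b b.2)⟩⟩

end Cfsg.Agent.Lib.Helper84.CM
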