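import Cfsg.Agent.Lib.Helper84.CM.A4

set_option autoImplicit false

namespace Cfsg.Agent.Lib.Helper84.CM

open Cfsg
open scoped commutatorElement

variable {G : Type*} [Group G] [Finite G]

theorem dirA (h : HM G) :
    (∃ p : ℕ, p.Prime ∧ IsPGroup p G) ∨ IsMulCommutative G ∨
      ∃ (p : ℕ) (_ : Fact p.Prime) (P : Sylow p G) (A : Subgroup G), (P : Subgroup G).Normal ∧
        IsCyclic ↥A ∧ A ≠ ⊥ ∧ (Nat.card ↥A).Coprime p ∧ A ⊔ (P : Subgroup G) = ⊤ ∧
        IsMulCommutative ↥((P : Subgroup G) ⊓ Subgroup.centralizer (A : Set G)) ∧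
        (⁅A, (P : Subgroup G)⁆).Normal ∧
        ((P : Subgroup G) ⊓ Subgroup.centralizer (A : Set G)) ⊔ ⁅A, (P : Subgroup G)⁆ =
          (P : Subgroup G) ∧
        ((P : Subgroup G) ⊓ Subgroup.centralizer (A : Set G)) ⊓ ⁅A, (P : Subgroup G)⁆ = ⊥ ∧
        ∀ a ∈ A, a ≠ 1 → ∀ d ∈ ⁅A, (P : Subgroup G)⁆, a * d = d * a → d = 1 := by
  obtain ⟨p, hp, hv⟩ := exists_vp h
  have hpF : Fact p.Prime := ⟨hp⟩
  by_cases hpg : IsPGroup p G
  · exact Or.inl ⟨p, hp, hpg⟩
  by_cases hab : IsMulCommutative G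
  · exact Or.inr (Or.inl hab)
  right; right
  obtain ⟨P⟩ : Nonempty (Sylow p G) := inferInstance
  have hG' := comm_isPGroup p hv
  obtain ⟨hc, hn⟩ := sylow_normal p hG' P
  obtain ⟨A, hdisj, hsup, hcop, hAc, hcardA⟩ := exists_compl p P hn hc
  have hA1 : A ≠ ⊥ := by
    rintro rfl
    rw [bot_sup_eq] at hsup
    apply hpg
    have h1 := P.2
    rw [hsup] at h1
    exact h1.of_equiv Subgroup.topEquiv
  set C := (P : Subgroup G) ⊓ Subgroup.centralizer (A : Set G) with hC
  have hcomm : ⁅A, (P : Subgroup G)⁆ = ⁅(P : Subgroup G), A⁆ := Subgroup.commutator_comm _ _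
  have hDG' : ⁅A, (P : Subgroup G)⁆ ≤ commutator G := by
    rw [commutator_def]; exact Subgroup.commutator_mono le_top le_top
  -- the key facts for elements of prime order of A
  have hkey : ∀ a ∈ A, a ≠ 1 → ∃ k : ℕ,
      ((P : Subgroup G) ⊓ Subgroup.centralizer ({a ^ k} : Set G) = C) ∧ C ⊓ commutator G = ⊥ := by
    intro a ha ha1
    obtain ⟨k, q, hq, ho, hne, hqd⟩ := exists_prime_pow a ha1
    have hqp : q ≠ p := by
      rintro rfl
      have h1 : q ∣ Nat.card A := by
        have h2 : orderOf (⟨a, ha⟩ : A) ∣ Nat.card A := orderOf_dvd_natCard _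
        rw [← Subgroup.orderOf_coe] at h2
        exact hqd.trans h2
      have h3 := Nat.Coprime.coprime_dvd_left h1 hcop
      rw [Nat.coprime_self] at h3
      exact hq.one_lt.ne' h3
    have hcy := Cfsg.Agent.Lib.Helper82.card_centralizer_of_nonlinear_vanish (g := a ^ k)
      (fun χ hχ => hv χ hχ (a ^ k) q 1 hne hq hqp (by rw [ho, pow_one]))
    exact ⟨k, key p P hn hc A hsup hcop hAc (a ^ k) (A.pow_mem ha k) hcy⟩
  obtain ⟨a₀, ha₀, ha₀1⟩ : ∃ a₀ : G, a₀ ∈ A ∧ a₀ ≠ 1 := by
    by_contra hcon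
    push Not at hcon
    exact hA1 ((Subgroup.eq_bot_iff_forall _).2 hcon)
  obtain ⟨_, _, hCG'⟩ := hkey a₀ ha₀ ha₀1
  have hCD : C ⊓ ⁅A, (P : Subgroup G)⁆ = ⊥ := by
    apply le_bot_iff.1
    rw [← hCG']
    exact inf_le_inf_left _ hDG'
  have hCc : ∀ c₁ ∈ C, ∀ c₂ ∈ C, c₁ * c₂ = c₂ * c₁ := by
    intro c₁ h₁ c₂ h₂
    have h3 : ⁅c₁, c₂⁆ ∈ C ⊓ commutator G :=
      ⟨by rw [commutatorElement_def]
          exact C.mul_mem (C.mul_mem (C.mul_mem h₁ h₂) (C.inv_mem h₁)) (C.inv_mem h₂),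
        Subgroup.commutator_mem_commutator (Subgroup.mem_top _) (Subgroup.mem_top _)⟩
    rw [hCG', Subgroup.mem_bot, commutatorElement_eq_one_iff_mul_comm] at h3
    exact h3
  have hDn : (⁅A, (P : Subgroup G)⁆).Normal := by
    rw [← Subgroup.normalizer_eq_top_iff]
    apply top_le_iff.1
    rw [← hsup]
    exact Cfsg.Agent.Lib.Helper1.sup_le_normalizer_commutator A (P : Subgroup G)
  have hsupCD : C ⊔ ⁅A, (P : Subgroup G)⁆ = (P : Subgroup G) := by
    rw [hcomm, sup_comm]
    exact coprime_decomp p P hn A hcop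
  have hfpf : ∀ a ∈ A, a ≠ 1 → ∀ d ∈ ⁅A, (P : Subgroup G)⁆, a * d = d * a → d = 1 := by
    intro a ha ha1 d hd had
    obtain ⟨k, hk, _⟩ := hkey a ha ha1
    have hdC : d ∈ C := by
      rw [← hk]
      refine Subgroup.mem_inf.2 ⟨hc (hDG' hd), ?_⟩
      rw [Subgroup.mem_centralizer_singleton_iff]
      exact ((Commute.pow_left (show Commute a d from had) k).eq).symm
    have : d ∈ C ⊓ ⁅A, (P : Subgroup G)⁆ := ⟨hdC, hd⟩
    rwa [hCD, Subgroup.mem_bot] at this
  have hD1 : ⁅A, (P : Subgroup G)⁆ ≠ ⊥ := by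
    intro h0
    apply hab
    rw [h0, sup_bot_eq] at hsupCD
    -- everything is central
    have hcen : Subgroup.center G = ⊤ := by
      apply top_le_iff.1
      rw [← hsup]
      apply sup_le
      · intro a ha
        rw [Subgroup.mem_center_iff]
        have h1 : A ⊔ (P : Subgroup G) ≤ Subgroup.centralizer ({a} : Set G) := by
          apply sup_le
          · intro b hb
            rw [Subgroup.mem_centralizer_singleton_iff]
            exact hAc b hb a ha
          · intro s hs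
            rw [← hsupCD] at hs
            rw [Subgroup.mem_centralizer_singleton_iff]
            exact ((Subgroup.mem_centralizer_iff.1 hs.2) a ha).symm
        intro g
        have h2 : g ∈ Subgroup.centralizer ({a} : Set G) := h1 (hsup ▸ Subgroup.mem_top g)
        exact Subgroup.mem_centralizer_singleton_iff.1 h2
      · intro s hs
        rw [Subgroup.mem_center_iff]
        have hs' : s ∈ C := by rw [hsupCD]; exact hs
        have h1 : A ⊔ (P : Subgroup G) ≤ Subgroup.centralizer ({s} : Set G) := by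
          apply sup_le
          · intro b hb
            rw [Subgroup.mem_centralizer_singleton_iff]
            exact (Subgroup.mem_centralizer_iff.1 hs'.2) b hb
          · intro t ht
            rw [← hsupCD] at ht
            rw [Subgroup.mem_centralizer_singleton_iff]
            exact hCc t ht s hs'
        intro g
        have h2 : g ∈ Subgroup.centralizer ({s} : Set G) := h1 (hsup ▸ Subgroup.mem_top g)
        exact Subgroup.mem_centralizer_singleton_iff.1 h2
    refine ⟨⟨fun a b => ?_⟩⟩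
    have : b ∈ Subgroup.center G := hcen ▸ Subgroup.mem_top b
    exact Subgroup.mem_center_iff.1 this a
  have hDp : IsPGroup p (⁅A, (P : Subgroup G)⁆ : Subgroup G) := hG'.to_le hDG'
  refine ⟨p, hpF, P, A, hn, cyclic_of_fpf p A _ hDn hDp hD1 hAc hfpf, hA1, hcop, hsup,
    ⟨⟨fun a b => Subtype.ext (hCc a a.2 b b.2)⟩⟩, hDn, hsupCD, hCD, hfpf⟩

end Cfsg.Agent.Lib.Helper84.CM
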