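import Cfsg.Agent.Lib.Helper84.CM.Defs

set_option autoImplicit false

namespace Cfsg.Agent.Lib.Helper84.CM

open Cfsg
open scoped commutatorElement ComplexConjugate

variable {G : Type*} [Group G] [Finite G]

/-- If the centralizer of `g` is not larger than `[G : G']`, the nonlinear characters vanish at
`g`. -/
theorem vanish_of_card_le (g : G)
    (hg : Nat.card (Subgroup.centralizer ({g} : Set G)) ≤ (commutator G).index)
    (χ : IrrCharacter G) (hχ : (χ : G → ℂ) 1 ≠ 1) : (χ : G → ℂ) g = 0 := by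
  classical
  have := Fintype.ofFinite (IrrCharacter G)
  have h := Cfsg.Agent.Lib.Helper82.finsum_irr_mul_conj_self g
  rw [finsum_eq_sum_of_fintype] at h
  have h3 : ∀ ψ : IrrCharacter G, (ψ : G → ℂ) g * conj ((ψ : G → ℂ) g) =
      ((Complex.normSq ((ψ : G → ℂ) g) : ℝ) : ℂ) := fun ψ => Complex.mul_conj _
  simp only [h3] at h
  have h4 : ∑ ψ : IrrCharacter G, Complex.normSq ((ψ : G → ℂ) g) =
      (Nat.card (Subgroup.centralizer ({g} : Set G)) : ℝ) := by exact_mod_cast h
  rw [← Finset.sum_filter_add_sum_filter_not Finset.univ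
    (fun ψ : IrrCharacter G => (ψ : G → ℂ) 1 = 1)] at h4
  have h5 : ∑ ψ ∈ Finset.univ.filter (fun ψ : IrrCharacter G => (ψ : G → ℂ) 1 = 1),
      Complex.normSq ((ψ : G → ℂ) g) = ((commutator G).index : ℝ) := by
    have h6 : ∀ ψ ∈ Finset.univ.filter (fun ψ : IrrCharacter G => (ψ : G → ℂ) 1 = 1),
        Complex.normSq ((ψ : G → ℂ) g) = 1 := by
      intro ψ hψ
      have h7 := Cfsg.Agent.Lib.Helper82.isChar_linear_mul_conj
        (Cfsg.Agent.Lib.Helper82.isIrr_isChar ψ.2) (Finset.mem_filter.1 hψ).2 g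
      rw [h3] at h7
      exact_mod_cast h7
    rw [Finset.sum_congr rfl h6, Finset.sum_const, nsmul_eq_mul, mul_one,
      ← Cfsg.Agent.Lib.Helper82.card_linear_eq_index, Nat.card_eq_fintype_card,
      Fintype.card_subtype]
  rw [h5] at h4
  have h8 : ∑ ψ ∈ Finset.univ.filter (fun ψ : IrrCharacter G => ¬ (ψ : G → ℂ) 1 = 1),
      Complex.normSq ((ψ : G → ℂ) g) ≤ 0 := by
    have : (Nat.card (Subgroup.centralizer ({g} : Set G)) : ℝ) ≤ ((commutator G).index : ℝ) := by
      exact_mod_cast hg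
    linarith
  have h9 : ∑ ψ ∈ Finset.univ.filter (fun ψ : IrrCharacter G => ¬ (ψ : G → ℂ) 1 = 1),
      Complex.normSq ((ψ : G → ℂ) g) = 0 :=
    le_antisymm h8 (Finset.sum_nonneg (fun _ _ => Complex.normSq_nonneg _))
  have h10 := (Finset.sum_eq_zero_iff_of_nonneg (fun _ _ => Complex.normSq_nonneg _)).1 h9 χ
    (Finset.mem_filter.2 ⟨Finset.mem_univ _, hχ⟩)
  exact Complex.normSq_eq_zero.1 h10

/-- a subgroup meeting the normal subgroup `D` trivially has order at most `[G : D]` -/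
theorem card_le_index_of_disjoint (K D : Subgroup G) [hD : D.Normal] (h : K ⊓ D = ⊥) :
    Nat.card K ≤ D.index := by
  have h1 : D.relIndex K = Nat.card K := by
    rw [← Subgroup.inf_relIndex_right, inf_comm, h, Subgroup.relIndex_bot_left]
  rw [← h1]
  exact Nat.le_of_dvd (Nat.pos_of_ne_zero Subgroup.index_ne_zero_of_finite)
    (Subgroup.relIndex_dvd_index_of_normal D K)

/-- if `C_D(h) = 1`, `G' ≤ D`, the nonlinear characters vanish on the coset `D h` -/
theorem vanish_coset (D : Subgroup G) [hD : D.Normal] (hGD : commutator G ≤ D) (h : G)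
    (hh : ∀ d ∈ D, d * h = h * d → d = 1) (u : G) (hu : u ∈ D)
    (χ : IrrCharacter G) (hχ : (χ : G → ℂ) 1 ≠ 1) : (χ : G → ℂ) (u * h) = 0 := by
  have hch := Cfsg.Agent.Lib.Helper82.isIrr_isChar χ.2
  -- χ h = 0
  have h1 : (χ : G → ℂ) h = 0 := by
    apply vanish_of_card_le h _ χ hχ
    refine le_trans (card_le_index_of_disjoint _ D ?_) ?_
    · rw [Subgroup.eq_bot_iff_forall]
      intro d hd
      exact hh d hd.2 (Subgroup.mem_centralizer_singleton_iff.1 hd.1)
    · exact Nat.le_of_dvd (Nat.pos_of_ne_zero Subgroup.index_ne_zero_of_finite)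
        (Subgroup.index_dvd_of_le hGD)
  -- u h is conjugate to h
  have hinj : Function.Injective (fun w : D =>
      (⟨(w : G) * (h * (w : G)⁻¹ * h⁻¹), D.mul_mem w.2 (hD.conj_mem _ (D.inv_mem w.2) h)⟩ : D)) := by
    intro w w' hw
    have h2 : (w : G) * (h * (w : G)⁻¹ * h⁻¹) = (w' : G) * (h * (w' : G)⁻¹ * h⁻¹) :=
      congrArg Subtype.val hw
    have h3 : ((w' : G)⁻¹ * w) * h = h * ((w' : G)⁻¹ * w) := by
      have h4 : (w : G) * h * (w : G)⁻¹ = (w' : G) * h * (w' : G)⁻¹ := by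
        have := congrArg (· * h) h2
        simpa [mul_assoc] using this
      calc ((w' : G)⁻¹ * w) * h = (w' : G)⁻¹ * ((w : G) * h * (w : G)⁻¹) * w := by group
        _ = (w' : G)⁻¹ * ((w' : G) * h * (w' : G)⁻¹) * w := by rw [h4]
        _ = h * ((w' : G)⁻¹ * w) := by group
    have h5 := hh _ (D.mul_mem (D.inv_mem w'.2) w.2) h3
    apply Subtype.ext
    have : (w : G) = (w' : G) * ((w' : G)⁻¹ * w) := by group
    rw [this, h5, mul_one]
  obtain ⟨w, hw⟩ := (Finite.injective_iff_surjective.1 hinj) ⟨u, hu⟩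
  have hw' : (w : G) * (h * (w : G)⁻¹ * h⁻¹) = u := congrArg Subtype.val hw
  have h6 : u * h = (w : G) * h * (w : G)⁻¹ := by rw [← hw']; group
  rw [h6, Cfsg.Agent.Lib.Helper82.isChar_conj_eq hch, h1]

end Cfsg.Agent.Lib.Helper84.CM
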