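import Cfsg.Agent.Lib.Helper84.CM.B1

set_option autoImplicit false

namespace Cfsg.Agent.Lib.Helper84.CM

open Cfsg
open scoped commutatorElement

theorem comm_of_sup_top {Q : Type*} [Group Q] (X Y : Subgroup Q) (hXY : X ⊔ Y = ⊤)
    (hX : ∀ a ∈ X, ∀ b ∈ X, a * b = b * a) (hY : ∀ a ∈ Y, ∀ b ∈ Y, a * b = b * a)
    (hc : ∀ a ∈ X, ∀ b ∈ Y, a * b = b * a) : ∀ a b : Q, a * b = b * a := by
  have hcen : Subgroup.center Q = ⊤ := by
    apply top_le_iff.1
    rw [← hXY]
    apply sup_le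
    · intro a ha
      rw [Subgroup.mem_center_iff]
      have h1 : X ⊔ Y ≤ Subgroup.centralizer ({a} : Set Q) := by
        apply sup_le
        · intro b hb
          rw [Subgroup.mem_centralizer_singleton_iff]
          exact hX b hb a ha
        · intro s hs
          rw [Subgroup.mem_centralizer_singleton_iff]
          exact (hc a ha s hs).symm
      intro g
      have h2 : g ∈ Subgroup.centralizer ({a} : Set Q) := h1 (hXY ▸ Subgroup.mem_top g)
      exact Subgroup.mem_centralizer_singleton_iff.1 h2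
    · intro s hs
      rw [Subgroup.mem_center_iff]
      have h1 : X ⊔ Y ≤ Subgroup.centralizer ({s} : Set Q) := by
        apply sup_le
        · intro b hb
          rw [Subgroup.mem_centralizer_singleton_iff]
          exact hc b hb s hs
        · intro t ht
          rw [Subgroup.mem_centralizer_singleton_iff]
          exact hY t ht s hs
      intro g
      have h2 : g ∈ Subgroup.centralizer ({s} : Set Q) := h1 (hXY ▸ Subgroup.mem_top g)
      exact Subgroup.mem_centralizer_singleton_iff.1 h2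
  intro a b
  have : b ∈ Subgroup.center Q := hcen ▸ Subgroup.mem_top b
  exact Subgroup.mem_center_iff.1 this a

variable {G : Type*} [Group G] [Finite G]

omit [Finite G] in
/-- `G' ≤ D` when `G = A C D` with `A`, `C` abelian and commuting. -/
theorem commutator_le_of_sup (A C D : Subgroup G) [hD : D.Normal] (hsup : A ⊔ (C ⊔ D) = ⊤)
    (hA : ∀ a ∈ A, ∀ b ∈ A, a * b = b * a) (hC : ∀ a ∈ C, ∀ b ∈ C, a * b = b * a)
    (hAC : ∀ a ∈ A, ∀ b ∈ C, a * b = b * a) : commutator G ≤ D := by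
  have hQ : ∀ a b : G ⧸ D, a * b = b * a := by
    apply comm_of_sup_top (A.map (QuotientGroup.mk' D)) (C.map (QuotientGroup.mk' D))
    · have h1 : (⊤ : Subgroup G).map (QuotientGroup.mk' D) = ⊤ := by
        rw [← MonoidHom.range_eq_map]
        exact MonoidHom.range_eq_top.2 (QuotientGroup.mk'_surjective D)
      rw [← hsup, Subgroup.map_sup, Subgroup.map_sup] at h1
      have h2 : D.map (QuotientGroup.mk' D) = ⊥ := by
        rw [Subgroup.map_eq_bot_iff, QuotientGroup.ker_mk']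
      rw [h2, sup_bot_eq] at h1
      exact h1
    · rintro _ ⟨a, ha, rfl⟩ _ ⟨b, hb, rfl⟩
      rw [← map_mul, ← map_mul, hA a ha b hb]
    · rintro _ ⟨a, ha, rfl⟩ _ ⟨b, hb, rfl⟩
      rw [← map_mul, ← map_mul, hC a ha b hb]
    · rintro _ ⟨a, ha, rfl⟩ _ ⟨b, hb, rfl⟩
      rw [← map_mul, ← map_mul, hAC a ha b hb]
  rw [commutator_eq_closure, Subgroup.closure_le]
  rintro _ ⟨x, u, rfl⟩
  show ⁅x, u⁆ ∈ D
  rw [← QuotientGroup.eq_one_iff]
  have h2 : ((⁅x, u⁆ : G) : G ⧸ D) = ⁅(x : G ⧸ D), (u : G ⧸ D)⁆ := rfl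
  rw [h2, commutatorElement_eq_one_iff_mul_comm]
  exact hQ _ _

/-- the nonlinear characters vanish off `P` -/
theorem vanish_off (p : ℕ) [Fact p.Prime] (P : Sylow p G) (A : Subgroup G)
    (hn : (P : Subgroup G).Normal) (hAc : ∀ a ∈ A, ∀ b ∈ A, a * b = b * a)
    (hcop : (Nat.card ↥A).Coprime p) (hsup : A ⊔ (P : Subgroup G) = ⊤)
    (hCc : ∀ a ∈ (P : Subgroup G) ⊓ Subgroup.centralizer (A : Set G),
      ∀ b ∈ (P : Subgroup G) ⊓ Subgroup.centralizer (A : Set G), a * b = b * a)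
    (hDn : (⁅A, (P : Subgroup G)⁆).Normal)
    (hsupCD : ((P : Subgroup G) ⊓ Subgroup.centralizer (A : Set G)) ⊔ ⁅A, (P : Subgroup G)⁆ =
      (P : Subgroup G))
    (hfpf : ∀ a ∈ A, a ≠ 1 → ∀ d ∈ ⁅A, (P : Subgroup G)⁆, a * d = d * a → d = 1)
    (g : G) (hg : g ∉ (P : Subgroup G)) (χ : IrrCharacter G) (hχ : (χ : G → ℂ) 1 ≠ 1) :
    (χ : G → ℂ) g = 0 := by
  have hp : p.Prime := Fact.out
  set C := (P : Subgroup G) ⊓ Subgroup.centralizer (A : Set G) with hC
  set D := ⁅A, (P : Subgroup G)⁆ with hD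
  have hAC : ∀ a ∈ A, ∀ b ∈ C, a * b = b * a := fun a ha b hb =>
    (Subgroup.mem_centralizer_iff.1 hb.2) a ha
  have hGD : commutator G ≤ D :=
    commutator_le_of_sup A C D (by rw [hsupCD, hsup]) hAc hCc hAC
  -- decompose g
  have hg' : g ∈ ((P : Subgroup G) ⊔ A : Subgroup G) := by rw [sup_comm, hsup]; exact Subgroup.mem_top g
  rw [← SetLike.mem_coe, Subgroup.normal_mul] at hg'
  obtain ⟨s, hs, a, ha, rfl⟩ := hg'
  have hs' : s ∈ (D ⊔ C : Subgroup G) := by rw [sup_comm, hsupCD]; exact hs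
  rw [← SetLike.mem_coe, Subgroup.normal_mul] at hs'
  obtain ⟨u, hu, c, hc, rfl⟩ := hs'
  have ha1 : a ≠ 1 := by
    rintro rfl
    apply hg
    show u * c * 1 ∈ (P : Subgroup G)
    rw [mul_one]
    exact hs
  have hfin : u * c * a = u * (c * a) := mul_assoc _ _ _
  show (χ : G → ℂ) (u * c * a) = 0
  rw [hfin]
  apply vanish_coset D hGD (c * a) _ u hu χ hχ
  intro d hd hdc
  have hca : Commute c a := (hAC a ha c hc).symm
  have hcn : c ^ Nat.card (P : Subgroup G) = 1 := by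
    have h3 : (⟨c, hc.1⟩ : (P : Subgroup G)) ^ Nat.card (P : Subgroup G) = 1 := pow_card_eq_one'
    exact congrArg Subtype.val h3
  have hpow : (c * a) ^ Nat.card (P : Subgroup G) = a ^ Nat.card (P : Subgroup G) := by
    rw [hca.mul_pow, hcn, one_mul]
  have hcopa : (Nat.card (P : Subgroup G)).Coprime (orderOf a) := by
    obtain ⟨k, hk⟩ := P.2.exists_card_eq
    rw [hk]
    apply Nat.Coprime.pow_left
    have h2 : orderOf (⟨a, ha⟩ : A) ∣ Nat.card A := orderOf_dvd_natCard _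
    rw [← Subgroup.orderOf_coe] at h2
    exact (Nat.Coprime.coprime_dvd_left h2 hcop).symm
  obtain ⟨m, hm⟩ := exists_pow_eq_self_of_coprime hcopa
  have hda : Commute d a := by
    rw [← hm, ← hpow]
    exact ((show Commute d (c * a) from hdc).pow_right _).pow_right _
  exact hfpf a ha ha1 d hd hda.eq.symm

end Cfsg.Agent.Lib.Helper84.CM
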