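import Cfsg.Agent.Lib.Helper84.GC.LINSEP
import Cfsg.Agent.Lib.Helper82.Central
import Cfsg.Agent.Lib.Helper1.Fpf3
import Cfsg.Agent.S0189

set_option autoImplicit false

namespace Cfsg.Agent.Lib.Helper84.CM

open Cfsg

/-- Irreducible characters are multiplicative on pairs of nonidentity elements of prime power
orders for different primes. -/
def HM (G : Type*) [Group G] : Prop :=
  ∀ (x y : G) (χ : IrrCharacter G), x ≠ 1 → y ≠ 1 →
    (∃ p q a b : ℕ, p.Prime ∧ q.Prime ∧ p ≠ q ∧ orderOf x = p ^ a ∧ orderOf y = q ^ b) →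
    (χ : G → ℂ) (x * y) = (χ : G → ℂ) x * (χ : G → ℂ) y

/-- All nonlinear irreducible characters vanish on the nonidentity `q`-elements, `q ≠ p`. -/
def VP (G : Type*) [Group G] (p : ℕ) : Prop :=
  ∀ χ : IrrCharacter G, (χ : G → ℂ) 1 ≠ 1 → ∀ (y : G) (q b : ℕ), y ≠ 1 → q.Prime → q ≠ p →
    orderOf y = q ^ b → (χ : G → ℂ) y = 0

end Cfsg.Agent.Lib.Helper84.CM
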