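import Cfsg.Agent.Lib.Helper84.CM.A5
import Cfsg.Agent.Lib.Helper84.CM.B2

set_option autoImplicit false

namespace Cfsg.Agent.Lib.Helper84.CM

open Cfsg
open scoped commutatorElement

variable {G : Type*} [Group G] [Finite G]

omit [Finite G] in
theorem prime_eq_of_pow {p q a k : ℕ} (hp : p.Prime) (hq : q.Prime) (x : G) (hx : x ≠ 1)
    (hk : x ^ p ^ k = 1) (ho : orderOf x = q ^ a) : q = p := by
  have ha : a ≠ 0 := by
    rintro rfl
    rw [pow_zero, orderOf_eq_one_iff] at ho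
    exact hx ho
  have h1 : q ∣ p ^ k := by
    refine dvd_trans ?_ (orderOf_dvd_of_pow_eq_one hk)
    rw [ho]; exact dvd_pow_self q ha
  exact (Nat.prime_dvd_prime_iff_eq hq hp).1 (hq.dvd_of_dvd_pow h1)

theorem dirB
    (h : (∃ p : ℕ, p.Prime ∧ IsPGroup p G) ∨ IsMulCommutative G ∨
      ∃ (p : ℕ) (_ : Fact p.Prime) (P : Sylow p G) (A : Subgroup G), (P : Subgroup G).Normal ∧
        IsCyclic ↥A ∧ A ≠ ⊥ ∧ (Nat.card ↥A).Coprime p ∧ A ⊔ (P : Subgroup G) = ⊤ ∧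
        IsMulCommutative ↥((P : Subgroup G) ⊓ Subgroup.centralizer (A : Set G)) ∧
        (⁅A, (P : Subgroup G)⁆).Normal ∧
        ((P : Subgroup G) ⊓ Subgroup.centralizer (A : Set G)) ⊔ ⁅A, (P : Subgroup G)⁆ =
          (P : Subgroup G) ∧
        ((P : Subgroup G) ⊓ Subgroup.centralizer (A : Set G)) ⊓ ⁅A, (P : Subgroup G)⁆ = ⊥ ∧
        ∀ a ∈ A, a ≠ 1 → ∀ d ∈ ⁅A, (P : Subgroup G)⁆, a * d = d * a → d = 1) : HM G := by
  intro x y χ hx hy ⟨p₁, q₁, a, b, hp₁, hq₁, hne, hxo, hyo⟩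
  have hch := Cfsg.Agent.Lib.Helper82.isIrr_isChar χ.2
  rcases h with ⟨p, hp, hG⟩ | hab | ⟨p, hpF, P, A, hn, hcyc, _, hcop, hsup, hCc, hDn, hsupCD, _, hfpf⟩
  · exfalso
    obtain ⟨k, hk⟩ := hG x
    obtain ⟨l, hl⟩ := hG y
    exact hne ((prime_eq_of_pow hp hp₁ x hx hk hxo).trans (prime_eq_of_pow hp hq₁ y hy hl hyo).symm)
  · have h1 : (χ : G → ℂ) 1 = 1 :=
      Cfsg.Agent.Lib.Helper82.isIrr_one_eq_one_of_comm (fun a b => mul_comm' a b) χ.2
    exact Cfsg.Agent.Lib.Helper82.isChar_linear_mul hch h1 x y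
  · by_cases h1 : (χ : G → ℂ) 1 = 1
    · exact Cfsg.Agent.Lib.Helper82.isChar_linear_mul hch h1 x y
    have hp : p.Prime := hpF.out
    have hAc : ∀ a ∈ A, ∀ b ∈ A, a * b = b * a := by
      intro a ha b hb
      have : IsMulCommutative A := inferInstance
      exact congrArg Subtype.val (mul_comm' (⟨a, ha⟩ : A) ⟨b, hb⟩)
    have hCc' : ∀ a ∈ (P : Subgroup G) ⊓ Subgroup.centralizer (A : Set G),
        ∀ b ∈ (P : Subgroup G) ⊓ Subgroup.centralizer (A : Set G), a * b = b * a := by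
      intro a ha b hb
      exact congrArg Subtype.val (mul_comm'
        (⟨a, ha⟩ : ((P : Subgroup G) ⊓ Subgroup.centralizer (A : Set G) : Subgroup G)) ⟨b, hb⟩)
    have hoff := fun g hg => vanish_off p P A hn hAc hcop hsup hCc' hDn hsupCD hfpf g hg χ h1
    -- not both in P
    have hnot : ¬ (x ∈ (P : Subgroup G) ∧ y ∈ (P : Subgroup G)) := by
      rintro ⟨hxP, hyP⟩
      obtain ⟨k, hk⟩ := P.2 ⟨x, hxP⟩
      obtain ⟨l, hl⟩ := P.2 ⟨y, hyP⟩
      exact hne ((prime_eq_of_pow hp hp₁ x hx (congrArg Subtype.val hk) hxo).trans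
        (prime_eq_of_pow hp hq₁ y hy (congrArg Subtype.val hl) hyo).symm)
    have hxy : x * y ∉ (P : Subgroup G) := by
      intro hxyP
      apply hnot
      have e1 : ((x : G ⧸ (P : Subgroup G))) * (y : G ⧸ (P : Subgroup G)) = 1 :=
        (QuotientGroup.eq_one_iff (x * y)).2 hxyP
      have e2 : (x : G ⧸ (P : Subgroup G)) ^ (p₁ ^ a) = 1 := by
        rw [← QuotientGroup.mk_pow, ← hxo, pow_orderOf_eq_one]; rfl
      have e3 : (y : G ⧸ (P : Subgroup G)) ^ (q₁ ^ b) = 1 := by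
        rw [← QuotientGroup.mk_pow, ← hyo, pow_orderOf_eq_one]; rfl
      have e4 : (x : G ⧸ (P : Subgroup G)) = (y : G ⧸ (P : Subgroup G))⁻¹ := eq_inv_of_mul_eq_one_left e1
      have e5 : (x : G ⧸ (P : Subgroup G)) ^ (q₁ ^ b) = 1 := by rw [e4, inv_pow, e3, inv_one]
      have hcop' : (p₁ ^ a).Coprime (q₁ ^ b) :=
        Nat.Coprime.pow _ _ ((Nat.coprime_primes hp₁ hq₁).2 hne)
      have e6 : (x : G ⧸ (P : Subgroup G)) = 1 := by
        have := pow_gcd_eq_one.2 ⟨e2, e5⟩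
        rwa [hcop'.gcd_eq_one, pow_one] at this
      have hxP : x ∈ (P : Subgroup G) := (QuotientGroup.eq_one_iff x).1 e6
      refine ⟨hxP, ?_⟩
      have : y = x⁻¹ * (x * y) := by group
      rw [this]
      exact (P : Subgroup G).mul_mem ((P : Subgroup G).inv_mem hxP) hxyP
    rw [hoff _ hxy]
    by_cases hxP : x ∈ (P : Subgroup G)
    · have hyP : y ∉ (P : Subgroup G) := fun hyP => hnot ⟨hxP, hyP⟩
      rw [hoff _ hyP, mul_zero]
    · rw [hoff _ hxP, zero_mul]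

theorem main :
    HM G ↔ ((∃ p : ℕ, p.Prime ∧ IsPGroup p G) ∨ IsMulCommutative G ∨
      ∃ (p : ℕ) (_ : Fact p.Prime) (P : Sylow p G) (A : Subgroup G), (P : Subgroup G).Normal ∧
        IsCyclic ↥A ∧ A ≠ ⊥ ∧ (Nat.card ↥A).Coprime p ∧ A ⊔ (P : Subgroup G) = ⊤ ∧
        IsMulCommutative ↥((P : Subgroup G) ⊓ Subgroup.centralizer (A : Set G)) ∧
        (⁅A, (P : Subgroup G)⁆).Normal ∧
        ((P : Subgroup G) ⊓ Subgroup.centralizer (A : Set G)) ⊔ ⁅A, (P : Subgroup G)⁆ =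
          (P : Subgroup G) ∧
        ((P : Subgroup G) ⊓ Subgroup.centralizer (A : Set G)) ⊓ ⁅A, (P : Subgroup G)⁆ = ⊥ ∧
        ∀ a ∈ A, a ≠ 1 → ∀ d ∈ ⁅A, (P : Subgroup G)⁆, a * d = d * a → d = 1) :=
  ⟨dirA, dirB⟩

end Cfsg.Agent.Lib.Helper84.CM
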